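import Cfsg.Agent.H4.LDM.Wrap
import Cfsg.Agent.H4.LDM.M23El

/-!
# `M23` is not the socle of a maximal subgroup of `SL_11(2)`
-/

set_option autoImplicit false

namespace Cfsg.Agent.H4.LDM

open Matrix Cfsg

universe u

/-- the scalars are trivial over the field with two elements -/
theorem scalars_bot {n : ℕ} {F : Type u} [Field F] [Fintype F] (hF : Fintype.card F = 2)
    (P : Subgroup (GL (Fin n) F)) : (Geo.scalars (Fin n) F).subgroupOf P = ⊥ := by
  rw [Subgroup.eq_bot_iff_forall]
  intro z hz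
  rw [Subgroup.mem_subgroupOf, Geo.mem_scalars_iff] at hz
  obtain ⟨c, hc⟩ := hz
  apply Subtype.ext
  apply Units.ext
  rcases two_elements hF (c : F) with h | h
  · exact absurd h c.ne_zero
  · rw [hc, h, one_smul]
    rfl

/-- `P` is isomorphic to `P` modulo scalars -/
theorem equiv_of_card_two {n : ℕ} {F : Type u} [Field F] [Fintype F] (hF : Fintype.card F = 2)
    (P : Subgroup (GL (Fin n) F)) {T : Type*} [Group T]
    (e : Nonempty ((P ⧸ (Geo.scalars (Fin n) F).subgroupOf P) ≃* T)) : Nonempty (P ≃* T) := by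
  obtain ⟨e⟩ := e
  have h := scalars_bot hF P
  exact ⟨((QuotientGroup.quotientBot (G := P)).symm.trans (QuotientGroup.quotientMulEquivOfEq h.symm)).trans e⟩

/-- **`M23 < M24 < SL_11(2)`** -/
theorem m23_not_maximal {F : Type u} [Field F] [Fintype F] (hF : Fintype.card F = 2)
    {H P : Subgroup (GL (Fin 11) F)} (hH : Geo.IsMaximalIn (Geo.specialLinear (Fin 11) F) H) (hPH : P ≤ H)
    (hN : ∀ h ∈ H, ∀ x ∈ P, h * x * h⁻¹ ∈ P)
    (e : Spor.IsoM23 (P ⧸ (Geo.scalars (Fin 11) F).subgroupOf P)) : False := by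
  obtain ⟨e⟩ := equiv_of_card_two hF P e
  have hr : (P.subtype.comp e.symm.toMonoidHom).range = P := by
    rw [MonoidHom.range_comp]
    have : (e.symm.toMonoidHom).range = ⊤ := MonoidHom.range_eq_top.2 e.symm.surjective
    rw [this, ← MonoidHom.range_eq_map, Subgroup.range_subtype]
  obtain ⟨k, K, v, hk, hkK, hkN, hmax, hfr⟩ := exists_frame hF hH (P.subtype.comp e.symm.toMonoidHom)
    (P.subtype_injective.comp e.symm.injective) (by rw [hr]; exact hPH) (by rw [hr]; exact hN)
    M23El.gx_pow M23El.gx_ne M23El.gy_gx M23El.gy_pow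
  have hcard : Nat.card k.range = 10200960 := by
    rw [← SporadicA.MathieuRecog.card_M23]
    exact (Nat.card_congr (MonoidHom.ofInjective hk).toEquiv).symm
  have hfin : Finite k.range := Nat.finite_of_card_ne_zero (by rw [hcard]; norm_num)
  refine hfr.kill23 (H := K) (P := k.range) (f := k M23El.gf) ?_ hkK hkN hmax ?_ ⟨_, rfl⟩ ?_ ?_ ?_ ?_
  · intro E
    have hF2 := two_elements hF
    refine ⟨LinearEquiv.mk ⟨⟨E, map_add E⟩, ?_⟩ E.symm E.left_inv E.right_inv, fun w => rfl⟩
    intro c w
    rcases hF2 c with rfl | rfl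
    · simp
    · simp
  · rw [MonoidHom.range_eq_map, ← M23El.closure_top, MonoidHom.map_closure, Set.image_pair]
  · rw [← map_mul, M23El.gf_gy, map_mul, map_pow]
  · rw [← map_mul, M23El.gy_gf, map_mul, map_pow]
  · have := congrArg k M23El.grel
    simpa only [map_mul, map_pow] using this
  · rw [hcard]
    norm_num

end Cfsg.Agent.H4.LDM
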