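import Cfsg.Agent.ChevalleyStructure.SL2Hom
import Cfsg.Agent.CTwoTab.Card

/-!
# Generators of `PSL2(23)`: `x ↦ x + 1`, `x ↦ 2x`, `x ↦ -1/x`
-/

set_option autoImplicit false

namespace Cfsg.Agent.H4.LDM.PSLEl

open Cfsg Matrix

instance fact23 : Fact (Nat.Prime 23) := ⟨by norm_num⟩

/-- `SL2(23)` -/
abbrev S := SpecialLinearGroup (Fin 2) (ZMod 23)
/-- `PSL2(23)` -/
abbrev Q := ProjectiveSpecialLinearGroup (Fin 2) (ZMod 23)

/-- `x + 1` -/
def X : S := ⟨!![1, 1; 0, 1], by rw [Matrix.det_fin_two_of]; decide⟩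
/-- `2 x` -/
def Y : S := ⟨!![5, 0; 0, 14], by rw [Matrix.det_fin_two_of]; decide⟩
/-- `-1/x` -/
def Z : S := ⟨!![0, 1; -1, 0], by rw [Matrix.det_fin_two_of]; decide⟩

/-- the projection -/
def pr : S →* Q := QuotientGroup.mk' _

theorem pr_eq {a b : S} (h : (a : Matrix (Fin 2) (Fin 2) (ZMod 23)) = b ∨ (a : Matrix (Fin 2) (Fin 2) (ZMod 23)) = -b) :
    pr a = pr b := by
  rcases h with h | h
  · rw [Subtype.ext h]
  · apply QuotientGroup.eq.2
    rw [Matrix.SpecialLinearGroup.mem_center_iff]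
    refine ⟨-1, by decide, ?_⟩
    have h1 : (a⁻¹ * b : S) = a⁻¹ * (-a) := by
      congr 1
      apply Subtype.ext
      rw [Matrix.SpecialLinearGroup.coe_neg, h, neg_neg]
    rw [h1, mul_neg, inv_mul_cancel, Matrix.SpecialLinearGroup.coe_neg, Matrix.SpecialLinearGroup.coe_one]
    ext i j
    fin_cases i <;> fin_cases j <;> simp [Matrix.scalar_apply]

/-- the generators -/
def gx : Q := pr X
/-- the generators -/
def gy : Q := pr Y
/-- the generators -/
def gz : Q := pr Z

theorem gx_pow : gx ^ 23 = 1 := by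
  unfold gx
  rw [← map_pow, ← map_one pr]
  exact pr_eq (Or.inl (by decide +kernel))

theorem gy_pow : gy ^ 11 = 1 := by
  unfold gy
  rw [← map_pow, ← map_one pr]
  exact pr_eq (Or.inr (by decide +kernel))

theorem gy_gx : gy * gx = gx ^ 2 * gy := by
  unfold gx gy
  rw [← map_pow, ← map_mul, ← map_mul]
  exact pr_eq (Or.inl (by decide +kernel))

theorem gz_gy : gz * gy = gy ^ 10 * gz := by
  unfold gz gy
  rw [← map_pow, ← map_mul, ← map_mul]
  exact pr_eq (by decide +kernel)

theorem gy_gz : gy * gz = gz * gy ^ 10 := by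
  unfold gz gy
  rw [← map_pow, ← map_mul, ← map_mul]
  exact pr_eq (by decide +kernel)

theorem gz_gz : gz * gz = 1 := by
  unfold gz
  rw [← map_mul, ← map_one pr]
  exact pr_eq (by decide +kernel)

theorem grel : gz * gx * gz * gx = gx ^ 22 * gz := by
  unfold gz gx
  rw [← map_pow, ← map_mul, ← map_mul, ← map_mul, ← map_mul]
  exact pr_eq (by decide +kernel)

theorem gx_ne : gx ≠ 1 := by
  intro h
  have h1 : X ∈ Subgroup.center S := (QuotientGroup.eq_one_iff X).1 h
  rw [Subgroup.mem_center_iff] at h1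
  have h2 := congrArg (fun a : S => (a : Matrix (Fin 2) (Fin 2) (ZMod 23)) 0 0) (h1 Z)
  revert h2
  decide +kernel

theorem closure_top : Subgroup.closure ({gx, gz} : Set Q) = ⊤ := by
  rw [eq_top_iff]
  intro q _
  obtain ⟨g, rfl⟩ := QuotientGroup.mk'_surjective _ q
  change pr g ∈ Subgroup.closure ({gx, gz} : Set Q)
  have hx : gx ∈ Subgroup.closure ({gx, gz} : Set Q) := Subgroup.subset_closure (by simp)
  have hz : gz ∈ Subgroup.closure ({gx, gz} : Set Q) := Subgroup.subset_closure (by simp)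
  have h1 := Cfsg.Agent.ChevalleyStructure.SL2Hom.mem_closure_SL2 (F := ZMod 23) g
  have h2 : Subgroup.closure (Set.range (Cfsg.Agent.ChevalleyStructure.SL2Hom.up (F := ZMod 23)) ∪
      Set.range (Cfsg.Agent.ChevalleyStructure.SL2Hom.lo (F := ZMod 23))) ≤
      (Subgroup.closure ({gx, gz} : Set Q)).comap pr := by
    have hup : ∀ n : ℕ, X ^ n = Cfsg.Agent.ChevalleyStructure.SL2Hom.up (n : ZMod 23) := by
      intro n
      induction n with
      | zero =>
        apply Subtype.ext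
        change ((X ^ 0 : S) : Matrix (Fin 2) (Fin 2) (ZMod 23)) = !![1, ((0 : ℕ) : ZMod 23); 0, 1]
        rw [pow_zero]
        ext i j
        fin_cases i <;> fin_cases j <;> simp
      | succ n ih =>
        rw [pow_succ, ih]
        apply Subtype.ext
        change (!![1, (n : ZMod 23); 0, 1] : Matrix (Fin 2) (Fin 2) (ZMod 23)) * !![1, 1; 0, 1] =
          !![1, ((n + 1 : ℕ) : ZMod 23); 0, 1]
        rw [Matrix.mul_fin_two]
        ext i j
        fin_cases i <;> fin_cases j <;> simp <;> ring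
    have hup' : ∀ t : ZMod 23, Cfsg.Agent.ChevalleyStructure.SL2Hom.up t ∈
        (Subgroup.closure ({gx, gz} : Set Q)).comap pr := by
      intro t
      have := hup t.val
      rw [ZMod.natCast_zmod_val] at this
      rw [← this, Subgroup.mem_comap, map_pow]
      exact Subgroup.pow_mem _ hx _
    rw [Subgroup.closure_le]
    rintro _ (⟨t, rfl⟩ | ⟨t, rfl⟩)
    · exact hup' t
    · have h3 : Cfsg.Agent.ChevalleyStructure.SL2Hom.lo t =
          Z * Cfsg.Agent.ChevalleyStructure.SL2Hom.up (-t) * Z⁻¹ := by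
        rw [eq_mul_inv_iff_mul_eq]
        apply Subtype.ext
        change (!![1, 0; t, 1] : Matrix (Fin 2) (Fin 2) (ZMod 23)) * !![0, 1; -1, 0] =
          !![0, 1; -1, 0] * !![1, -t; 0, 1]
        rw [Matrix.mul_fin_two, Matrix.mul_fin_two]
        ext i j
        fin_cases i <;> fin_cases j <;> simp
      rw [h3]
      exact Subgroup.mul_mem _ (Subgroup.mul_mem _ hz (hup' _)) (Subgroup.inv_mem _ hz)
  exact h2 h1

theorem card_Q : Nat.card Q = 6072 := by
  have h := Cfsg.Agent.CTwoTab.card_psl_two (F := ZMod 23) (by rw [ZMod.card]; decide)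
  rw [ZMod.card] at h
  have h2 : 23 * (23 ^ 2 - 1) = 2 * Nat.card Q := h
  rw [show 23 * (23 ^ 2 - 1) = 2 * 6072 by norm_num] at h2
  exact (Nat.eq_of_mul_eq_mul_left (by norm_num) h2).symm

end Cfsg.Agent.H4.LDM.PSLEl
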