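import Cfsg.Agent.H4.LDM.M23Kill
import Cfsg.Agent.H4.LDM.PSLEl

/-!
# `L2(23)` is not the socle of a maximal subgroup of `SL_11(2)`
-/

set_option autoImplicit false

namespace Cfsg.Agent.H4.LDM

open Matrix Cfsg

universe u

/-- **`L2(23) < M24 < SL_11(2)`** -/
theorem l2_23_not_maximal {F : Type u} [Field F] [Fintype F] (hF : Fintype.card F = 2)
    {H P : Subgroup (GL (Fin 11) F)} (hH : Geo.IsMaximalIn (Geo.specialLinear (Fin 11) F) H) (hPH : P ≤ H)
    (hN : ∀ h ∈ H, ∀ x ∈ P, h * x * h⁻¹ ∈ P)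
    (e : Nonempty ((P ⧸ (Geo.scalars (Fin 11) F).subgroupOf P) ≃* ProjectiveSpecialLinearGroup (Fin 2) (ZMod 23))) :
    False := by
  obtain ⟨e⟩ := equiv_of_card_two hF P e
  have hr : (P.subtype.comp e.symm.toMonoidHom).range = P := by
    rw [MonoidHom.range_comp]
    have : (e.symm.toMonoidHom).range = ⊤ := MonoidHom.range_eq_top.2 e.symm.surjective
    rw [this, ← MonoidHom.range_eq_map, Subgroup.range_subtype]
  obtain ⟨k, K, v, hk, hkK, hkN, hmax, hfr⟩ := exists_frame hF hH (P.subtype.comp e.symm.toMonoidHom)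
    (P.subtype_injective.comp e.symm.injective) (by rw [hr]; exact hPH) (by rw [hr]; exact hN)
    PSLEl.gx_pow PSLEl.gx_ne PSLEl.gy_gx PSLEl.gy_pow
  have hcard : Nat.card k.range = 6072 := by
    rw [← PSLEl.card_Q]
    exact (Nat.card_congr (MonoidHom.ofInjective hk).toEquiv).symm
  have hfin : Finite k.range := Nat.finite_of_card_ne_zero (by rw [hcard]; norm_num)
  refine hfr.killL2 (H := K) (P := k.range) (z := k PSLEl.gz) ?_ ?_ hkK hkN hmax ?_ ⟨_, rfl⟩ ?_ ?_ ?_ ?_ ?_ ?_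
  · intro g hg
    exact LinearEquiv.ext hg
  · intro E
    have hF2 := two_elements hF
    refine ⟨LinearEquiv.mk ⟨⟨E, map_add E⟩, ?_⟩ E.symm E.left_inv E.right_inv, fun w => rfl⟩
    intro c w
    rcases hF2 c with rfl | rfl
    · simp
    · simp
  · rw [MonoidHom.range_eq_map, ← PSLEl.closure_top, MonoidHom.map_closure, Set.image_pair]
  · rw [← map_mul, PSLEl.gz_gy, map_mul, map_pow]
  · rw [← map_mul, PSLEl.gy_gz, map_mul, map_pow]
  · rw [← map_mul, PSLEl.gz_gz, map_one]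
  · have := congrArg k PSLEl.grel
    simpa only [map_mul, map_pow] using this
  · rw [hcard]
    norm_num
  · rw [hcard]
    norm_num

end Cfsg.Agent.H4.LDM
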