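import Cfsg.Agent.H4.LDM.Kill
import Cfsg.Prelude.Def_GeometricClasses

/-!
# From subgroups of `GL_11(2)` to frames

`exists_frame` : a maximal subgroup of `SL_11(2)` with a normal subgroup `j(T)`, `T` containing a Frobenius group
`23:11`: in the natural or in the dual module there is a frame.
-/

set_option autoImplicit false

namespace Cfsg.Agent.H4.LDM

open Matrix

universe u

/-- the natural action -/
def rho (n : ℕ) (F : Type u) [Field F] : GL (Fin n) F →* ((Fin n → F) ≃ₗ[F] (Fin n → F)) where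
  toFun g :=
    { toFun := fun w => (g : Matrix (Fin n) (Fin n) F) *ᵥ w
      invFun := fun w => ((g⁻¹ : GL (Fin n) F) : Matrix (Fin n) (Fin n) F) *ᵥ w
      left_inv := fun w => by
        change (((g⁻¹ : GL (Fin n) F) : Matrix (Fin n) (Fin n) F)) *ᵥ ((g : Matrix (Fin n) (Fin n) F) *ᵥ w) = w
        rw [Matrix.mulVec_mulVec, ← Units.val_mul, inv_mul_cancel, Units.val_one, Matrix.one_mulVec]
      right_inv := fun w => by
        change (g : Matrix (Fin n) (Fin n) F) *ᵥ (((g⁻¹ : GL (Fin n) F) : Matrix (Fin n) (Fin n) F) *ᵥ w) = w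
        rw [Matrix.mulVec_mulVec, ← Units.val_mul, mul_inv_cancel, Units.val_one, Matrix.one_mulVec]
      map_add' := fun w w' => Matrix.mulVec_add _ _ _
      map_smul' := fun c w => Matrix.mulVec_smul _ _ _ }
  map_one' := by
    apply LinearEquiv.ext
    intro w
    exact Matrix.one_mulVec w
  map_mul' g g' := by
    apply LinearEquiv.ext
    intro w
    exact (Matrix.mulVec_mulVec w (g : Matrix (Fin n) (Fin n) F) (g' : Matrix (Fin n) (Fin n) F)).symm

theorem rho_smul {n : ℕ} {F : Type u} [Field F] (g : GL (Fin n) F) (w : Fin n → F) :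
    rho n F g • w = (g : Matrix (Fin n) (Fin n) F) *ᵥ w := rfl

theorem rho_injective (n : ℕ) (F : Type u) [Field F] : Function.Injective (rho n F) := by
  intro g g' hgg
  apply Units.ext
  apply Matrix.mulVec_injective
  funext w
  exact DFunLike.congr_fun hgg w

theorem rho_surjective (n : ℕ) (F : Type u) [Field F] : Function.Surjective (rho n F) := by
  intro E
  have key : ∀ E : (Fin n → F) ≃ₗ[F] (Fin n → F), ∃ M : Matrix (Fin n) (Fin n) F, ∀ w, M *ᵥ w = E w := by
    intro E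
    refine ⟨LinearMap.toMatrix' E.toLinearMap, fun w => ?_⟩
    rw [← Matrix.toLin'_apply, Matrix.toLin'_toMatrix']
    rfl
  obtain ⟨M, hM⟩ := key E
  obtain ⟨M', hM'⟩ := key E⁻¹
  have h1 : M * M' = 1 := by
    apply Matrix.mulVec_injective
    funext w
    rw [← Matrix.mulVec_mulVec, hM', hM, Matrix.one_mulVec]
    exact DFunLike.congr_fun (mul_inv_cancel E) w
  have h2 : M' * M = 1 := by
    apply Matrix.mulVec_injective
    funext w
    rw [← Matrix.mulVec_mulVec, hM', hM, Matrix.one_mulVec]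
    exact DFunLike.congr_fun (inv_mul_cancel E) w
  exact ⟨⟨M, M', h1, h2⟩, LinearEquiv.ext hM⟩

/-- the inverse transpose -/
def tinv (n : ℕ) (F : Type u) [Field F] : GL (Fin n) F →* GL (Fin n) F where
  toFun g := ⟨((g⁻¹ : GL (Fin n) F) : Matrix (Fin n) (Fin n) F)ᵀ, (g : Matrix (Fin n) (Fin n) F)ᵀ, by
    rw [← Matrix.transpose_mul, ← Units.val_mul, mul_inv_cancel, Units.val_one, Matrix.transpose_one], by
    rw [← Matrix.transpose_mul, ← Units.val_mul, inv_mul_cancel, Units.val_one, Matrix.transpose_one]⟩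
  map_one' := by
    apply Units.ext
    change ((1⁻¹ : GL (Fin n) F) : Matrix (Fin n) (Fin n) F)ᵀ = 1
    rw [inv_one, Units.val_one, Matrix.transpose_one]
  map_mul' a b := by
    apply Units.ext
    change (((a * b)⁻¹ : GL (Fin n) F) : Matrix (Fin n) (Fin n) F)ᵀ =
      ((a⁻¹ : GL (Fin n) F) : Matrix (Fin n) (Fin n) F)ᵀ * ((b⁻¹ : GL (Fin n) F) : Matrix (Fin n) (Fin n) F)ᵀ
    rw [_root_.mul_inv_rev, Units.val_mul, Matrix.transpose_mul]

theorem tinv_tinv {n : ℕ} {F : Type u} [Field F] (g : GL (Fin n) F) : tinv n F (tinv n F g) = g := by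
  apply Units.ext
  change (((tinv n F g)⁻¹ : GL (Fin n) F) : Matrix (Fin n) (Fin n) F)ᵀ = g
  change ((g : Matrix (Fin n) (Fin n) F)ᵀ)ᵀ = g
  rw [Matrix.transpose_transpose]

/-- transport along an isomorphism -/
theorem transport {G G' : Type*} [Group G] [Group G'] (r : G →* G') (hr : Function.Bijective r) {H : Subgroup G}
    {T : Type*} [Group T] (j : T →* G) (hj : Function.Injective j) (hjH : j.range ≤ H)
    (hN : ∀ g ∈ H, ∀ a ∈ j.range, g * a * g⁻¹ ∈ j.range)
    (hmax : ∀ M, H ≤ M → M = H ∨ M = ⊤) :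
    Function.Injective (r.comp j) ∧ (r.comp j).range ≤ H.map r ∧
      (∀ g ∈ H.map r, ∀ a ∈ (r.comp j).range, g * a * g⁻¹ ∈ (r.comp j).range) ∧
      ∀ M, H.map r ≤ M → M = H.map r ∨ M = ⊤ := by
  refine ⟨hr.1.comp hj, ?_, ?_, ?_⟩
  · rintro _ ⟨t, rfl⟩
    exact ⟨j t, hjH ⟨t, rfl⟩, rfl⟩
  · rintro _ ⟨g, hg, rfl⟩ _ ⟨t, rfl⟩
    obtain ⟨s, hs⟩ := hN g hg (j t) ⟨t, rfl⟩
    refine ⟨s, ?_⟩
    rw [MonoidHom.comp_apply, hs, map_mul, map_mul, map_inv]
    rfl
  · intro M hM
    have h1 : H ≤ M.comap r := Subgroup.map_le_iff_le_comap.1 hM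
    have h2 : (M.comap r).map r = M := Subgroup.map_comap_eq_self_of_surjective hr.2 M
    rcases hmax _ h1 with h3 | h3
    · left
      rw [← h2, h3]
    · right
      rw [← h2, h3, Subgroup.map_top_of_surjective r hr.2]

theorem two_elements {F : Type u} [Field F] [Fintype F] (hF : Fintype.card F = 2) (c : F) : c = 0 ∨ c = 1 := by
  classical
  by_contra h
  push Not at h
  have h1 : ({0, 1, c} : Finset F).card ≤ 2 := by
    rw [← hF]
    exact Finset.card_le_univ _
  rw [Finset.card_insert_of_notMem (by simp [h.1.symm]), Finset.card_insert_of_notMem (by simp [h.2.symm]),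
    Finset.card_singleton] at h1
  omega

theorem specialLinear_top {F : Type u} [Field F] [Fintype F] (hF : Fintype.card F = 2) (n : ℕ) :
    Cfsg.Geo.specialLinear (Fin n) F = ⊤ := by
  rw [eq_top_iff]
  intro g _
  change Matrix.GeneralLinearGroup.det g = 1
  apply Units.ext
  rcases two_elements hF ((Matrix.GeneralLinearGroup.det g : Fˣ) : F) with h | h
  · exact absurd h (Units.ne_zero _)
  · rw [h, Units.val_one]

/-- **the frame** -/
theorem exists_frame {F : Type u} [Field F] [Fintype F] (hF : Fintype.card F = 2) {H : Subgroup (GL (Fin 11) F)}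
    (hH : Cfsg.Geo.IsMaximalIn (Cfsg.Geo.specialLinear (Fin 11) F) H) {T : Type*} [Group T]
    (j : T →* GL (Fin 11) F) (hj : Function.Injective j) (hjH : j.range ≤ H)
    (hN : ∀ g ∈ H, ∀ a ∈ j.range, g * a * g⁻¹ ∈ j.range) {x y : T} (hx : x ^ 23 = 1) (hx1 : x ≠ 1)
    (hxy : y * x = x ^ 2 * y) (hy : y ^ 11 = 1) :
    ∃ (k : T →* ((Fin 11 → F) ≃ₗ[F] (Fin 11 → F))) (K : Subgroup ((Fin 11 → F) ≃ₗ[F] (Fin 11 → F))) (v : Fin 11 → F),
      Function.Injective k ∧ k.range ≤ K ∧ (∀ g ∈ K, ∀ a ∈ k.range, g * a * g⁻¹ ∈ k.range) ∧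
      (∀ M, K ≤ M → M = K ∨ M = ⊤) ∧ Fm (Fin 11 → F) ((Fin 11 → F) ≃ₗ[F] (Fin 11 → F)) (k x) (k y) v := by
  have hF2 := two_elements hF
  have h2 : (1 : F) + 1 = 0 := by
    rcases hF2 (1 + 1) with h | h
    · exact h
    · exfalso
      have : (1 : F) = 0 := by linear_combination h
      exact one_ne_zero this
  have hmax : ∀ M, H ≤ M → M = H ∨ M = ⊤ := by
    intro M hM
    have := hH.2 M hM (by rw [specialLinear_top hF]; exact le_top)
    rwa [specialLinear_top hF] at this
  have hV : ∀ w : Fin 11 → F, w + w = 0 := by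
    intro w
    funext i
    change w i + w i = 0
    linear_combination (w i) * h2
  have hcard : Nat.card (Fin 11 → F) = 2048 := by
    rw [Nat.card_eq_fintype_card, Fintype.card_fun, hF, Fintype.card_fin]
    norm_num
  have hFb : ∀ k : T →* ((Fin 11 → F) ≃ₗ[F] (Fin 11 → F)), Function.Injective k →
      Fb (Fin 11 → F) ((Fin 11 → F) ≃ₗ[F] (Fin 11 → F)) (k x) (k y) := by
    intro k hk
    refine ⟨hV, hcard, by rw [← map_pow, hx, map_one], ?_, by rw [← map_mul, hxy, map_mul, map_pow],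
      by rw [← map_pow, hy, map_one]⟩
    by_contra hn
    push Not at hn
    apply hx1
    apply hk
    rw [map_one]
    apply LinearEquiv.ext
    intro w
    exact hn w
  have hfr : ∀ k : T →* ((Fin 11 → F) ≃ₗ[F] (Fin 11 → F)), Function.Injective k →
      (∀ w : Fin 11 → F, Fb.pol (k x) Fb.S2 w = 0) →
      ∃ v, Fm (Fin 11 → F) ((Fin 11 → F) ≃ₗ[F] (Fin 11 → F)) (k x) (k y) v := by
    intro k hk hp
    obtain ⟨v, h1, h2, h3⟩ := (hFb k hk).exists_fix
    exact ⟨v, { toFb := hFb k hk, pol2 := hp, ne := h1, fix := h2, uniq := h3 }⟩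
  have hr1 : Function.Bijective (rho 11 F) := ⟨rho_injective _ _, rho_surjective _ _⟩
  have hti : Function.Bijective (tinv 11 F) := by
    constructor
    · intro a b hab
      rw [← tinv_tinv a, ← tinv_tinv b, hab]
    · intro a
      exact ⟨tinv 11 F a, tinv_tinv a⟩
  have hr2 : Function.Bijective ((rho 11 F).comp (tinv 11 F)) := hr1.comp hti
  obtain ⟨a1, a2, a3, a4⟩ := transport (rho 11 F) hr1 j hj hjH hN hmax
  obtain ⟨b1, b2, b3, b4⟩ := transport ((rho 11 F).comp (tinv 11 F)) hr2 j hj hjH hN hmax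
  rcases (hFb _ a1).pol_zero with hp | hp
  · -- the dual module
    have hM : ∑ i ∈ Fb.S1, ((j x ^ i : GL (Fin 11) F) : Matrix (Fin 11) (Fin 11) F) = 0 := by
      apply Matrix.mulVec_injective
      funext w
      have h3 := hp w
      rw [Fb.pol_apply] at h3
      rw [Matrix.zero_mulVec, Matrix.sum_mulVec, ← h3]
      apply Finset.sum_congr rfl
      intro i _
      rw [MonoidHom.comp_apply, ← map_pow (rho 11 F) (j x) i]
      rfl
    have hM2 : ∑ i ∈ Fb.S2, (((j x)⁻¹ ^ i : GL (Fin 11) F) : Matrix (Fin 11) (Fin 11) F) = 0 := by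
      have h4 : ∑ i ∈ Fb.S2, (((j x)⁻¹ ^ i : GL (Fin 11) F) : Matrix (Fin 11) (Fin 11) F) =
          ((((j x)⁻¹ ^ 11 : GL (Fin 11) F)) : Matrix (Fin 11) (Fin 11) F) *
            ∑ i ∈ Fb.S1, ((j x ^ i : GL (Fin 11) F) : Matrix (Fin 11) (Fin 11) F) := by
        rw [Finset.mul_sum]
        apply Finset.sum_nbij' (fun i => 11 - i) (fun i => 11 - i)
        · decide
        · decide
        · decide
        · decide
        · intro i hi
          have h5 : i ≤ 11 := by
            have : ∀ i ∈ Fb.S2, i ≤ 11 := by decide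
            exact this i hi
          rw [← Units.val_mul]
          congr 1
          rw [inv_pow, inv_pow, eq_inv_mul_iff_mul_eq]
          rw [mul_inv_eq_iff_eq_mul, ← pow_add]
          congr 1
          omega
      rw [h4, hM, mul_zero]
    obtain ⟨v, hv⟩ := hfr _ b1 (by
      intro w
      rw [Fb.pol_apply]
      have h5 : ∀ i : ℕ, (((rho 11 F).comp (tinv 11 F)).comp j) x ^ i • w =
          ((((j x)⁻¹ ^ i : GL (Fin 11) F) : Matrix (Fin 11) (Fin 11) F))ᵀ *ᵥ w := by
        intro i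
        rw [← map_pow, MonoidHom.comp_apply, MonoidHom.comp_apply, rho_smul, map_pow, inv_pow]
        rfl
      simp_rw [h5]
      rw [← Matrix.sum_mulVec, ← Matrix.transpose_sum, hM2, Matrix.transpose_zero, Matrix.zero_mulVec])
    exact ⟨_, _, v, b1, b2, b3, b4, hv⟩
  · obtain ⟨v, hv⟩ := hfr _ a1 hp
    exact ⟨_, _, v, a1, a2, a3, a4, hv⟩

end Cfsg.Agent.H4.LDM
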